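import Cfsg.Agent.SymIndex.Basic

/-!
The two classes of subgroups of index six in the symmetric group of degree six.
-/

namespace Cfsg.Agent.SymIndex

open Equiv Equiv.Perm MulAction

variable {α : Type*} [Fintype α] [DecidableEq α]

theorem isSwap_map_of_cycleType_ne (h5 : 5 ≤ Fintype.card α) (h6 : Fintype.card α ≠ 6)
    (ψ : Perm α ≃* Perm α) {t : Perm α} (ht : t.IsSwap) : (ψ t).IsSwap := by
  rcases cycleType_map_swap h5 ψ ht with h | h
  · exact isSwap_iff_cycleType.2 h
  · exact absurd h.1 h6

theorem isConj_of_isSwap {s t : Perm α} (hs : s.IsSwap) (ht : t.IsSwap) : IsConj s t := by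
  rw [isConj_iff_cycleType_eq, isSwap_iff_cycleType.1 hs, isSwap_iff_cycleType.1 ht]

theorem isSwap_map_of_one (ψ : Perm α ≃* Perm α) {t : Perm α} (ht : t.IsSwap)
    (hψt : (ψ t).IsSwap) {s : Perm α} (hs : s.IsSwap) : (ψ s).IsSwap := by
  have h := ψ.toMonoidHom.map_isConj (isConj_of_isSwap ht hs)
  simp only [MulEquiv.coe_toMonoidHom, isConj_iff_cycleType_eq] at h
  exact isSwap_iff_cycleType.2 (h ▸ isSwap_iff_cycleType.1 hψt)

theorem exists_isSwap (h2 : 2 ≤ Fintype.card α) : ∃ t : Perm α, t.IsSwap := by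
  obtain ⟨a, b, hab⟩ := Fintype.one_lt_card_iff_nontrivial.1 (show 1 < Fintype.card α by omega) |>.exists_pair_ne
  exact ⟨swap a b, a, b, hab, rfl⟩

theorem exotic_conj (h6 : Fintype.card α = 6) {H K : Subgroup (Perm α)} (hH : H.index = 6)
    (hK : K.index = 6) (hH' : ∀ x : α, H ≠ stabilizer (Perm α) x)
    (hK' : ∀ x : α, K ≠ stabilizer (Perm α) x) :
    ∃ (ψ : Perm α ≃* Perm α) (y z : α), H = (stabilizer (Perm α) y).map ψ.toMonoidHom ∧
      K = (stabilizer (Perm α) z).map ψ.toMonoidHom := by
  obtain ⟨ψ, y, hψ⟩ := exists_mulEquiv_map_stabilizer (by omega) (hH.trans h6.symm)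
  obtain ⟨χ, w, hχ⟩ := exists_mulEquiv_map_stabilizer (by omega) (hK.trans h6.symm)
  have ne : ∀ (φ : Perm α ≃* Perm α) (L : Subgroup (Perm α)) (v : α),
      L = (stabilizer (Perm α) v).map φ.toMonoidHom → (∀ x : α, L ≠ stabilizer (Perm α) x) →
      ∀ t : Perm α, t.IsSwap → (φ t).cycleType = Multiset.replicate 3 2 := by
    intro φ L v hL hL' t ht
    rcases cycleType_map_swap (by omega) φ ht with h | h
    · obtain ⟨x, hx⟩ := map_stabilizer_of_map_swap (by omega) φ
        (fun s hs => isSwap_map_of_one φ ht (isSwap_iff_cycleType.2 h) hs) v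
      exact absurd (hL.trans hx) (hL' x)
    · exact h.2
  have hθ : ∀ t : Perm α, t.IsSwap → ((χ.trans ψ.symm) t).IsSwap := by
    intro t ht
    have hc : IsConj (χ t) (ψ t) := by
      rw [isConj_iff_cycleType_eq, ne χ K w hχ hK' t ht, ne ψ H y hψ hH' t ht]
    have := ψ.symm.toMonoidHom.map_isConj hc
    simp only [MulEquiv.coe_toMonoidHom, MulEquiv.symm_apply_apply,
      isConj_iff_cycleType_eq] at this
    rw [MulEquiv.trans_apply, isSwap_iff_cycleType, this]
    exact isSwap_iff_cycleType.1 ht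
  obtain ⟨z, hz⟩ := map_stabilizer_of_map_swap (by omega) (χ.trans ψ.symm) hθ w
  refine ⟨ψ, y, z, hψ, ?_⟩
  rw [hχ, ← hz, Subgroup.map_map]
  congr 1
  ext1 g
  simp

theorem exists_exotic (h6 : Fintype.card α = 6) :
    ∃ H : Subgroup (Perm α), H.index = 6 ∧ ∀ x : α, H ≠ stabilizer (Perm α) x := by
  obtain ⟨P⟩ : Nonempty (Sylow 5 (Perm (Fin 5))) := inferInstance
  have : Fact (Nat.Prime 5) := ⟨by norm_num⟩
  have h120 : Nat.card (Perm (Fin 5)) = 120 := by
    rw [Nat.card_perm, Nat.card_eq_fintype_card, Fintype.card_fin]; rfl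
  have hP : Nat.card P = 5 := by
    rw [Sylow.card_eq_multiplicity, h120, show (120 : ℕ) = 5 ^ 1 * 24 from rfl,
      Nat.factorization_mul (by norm_num) (by norm_num), Finsupp.add_apply,
      Nat.Prime.factorization_pow (by norm_num : Nat.Prime 5), Finsupp.single_eq_same,
      Nat.factorization_eq_zero_of_not_dvd (by norm_num : ¬ 5 ∣ 24)]
    norm_num
  have hd : Nat.card (Sylow 5 (Perm (Fin 5))) ∣ 24 := by
    have h1 := Sylow.card_dvd_index P
    have h2 := P.toSubgroup.card_mul_index
    rw [show Nat.card P.toSubgroup = 5 from hP, h120] at h2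
    rwa [show P.toSubgroup.index = 24 by omega] at h1
  have hm := card_sylow_modEq_one 5 (Perm (Fin 5))
  have hne1 : Nat.card (Sylow 5 (Perm (Fin 5))) ≠ 1 := by
    intro h
    rw [P.card_eq_index_normalizer, Subgroup.index_eq_one] at h
    have h' : Subgroup.normalizer (P.toSubgroup : Set (Perm (Fin 5))) = ⊤ := h
    rw [Subgroup.normalizer_eq_top_iff] at h'
    have hn := normalCore_eq_bot (α := Fin 5) (by simp) (H := P.toSubgroup) ?_ ?_
    · rw [Subgroup.normalCore_eq_self] at hn
      rw [show Nat.card P = Nat.card P.toSubgroup from rfl, hn, Subgroup.card_bot] at hP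
      omega
    · intro he
      rw [show Nat.card P = Nat.card P.toSubgroup from rfl, he, Subgroup.card_top] at hP
      omega
    · intro he
      rw [show Nat.card P = Nat.card P.toSubgroup from rfl, he, nat_card_alternatingGroup,
        Nat.card_eq_fintype_card, Fintype.card_fin] at hP
      norm_num [Nat.factorial] at hP
  have hN : Nat.card (Sylow 5 (Perm (Fin 5))) = 6 := by
    have hle := Nat.le_of_dvd (by norm_num) hd
    unfold Nat.ModEq at hm
    generalize Nat.card (Sylow 5 (Perm (Fin 5))) = N at *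
    interval_cases N <;> omega
  have hstab : (stabilizer (Perm (Fin 5)) P).index = 6 :=
    (MulAction.index_stabilizer_of_transitive _ _).trans hN
  have hinj : Function.Injective (MulAction.toPermHom (Perm (Fin 5)) (Sylow 5 (Perm (Fin 5)))) := by
    rw [← MonoidHom.ker_eq_bot_iff]
    refine le_bot_iff.1 ((Subgroup.normal_le_normalCore (H := stabilizer (Perm (Fin 5)) P)).2
      ?_ |>.trans (le_of_eq ?_))
    · intro g hg
      exact congrArg (fun p : Perm (Sylow 5 (Perm (Fin 5))) => p P) (MonoidHom.mem_ker.1 hg)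
    · refine normalCore_eq_bot (by simp) (fun he => ?_) (fun he => ?_)
      · rw [he, Subgroup.index_top] at hstab; omega
      · rw [he, alternatingGroup.index_eq_two] at hstab; omega
  let e : Sylow 5 (Perm (Fin 5)) ≃ α :=
    (Finite.equivFinOfCardEq hN).trans ((finCongr h6.symm).trans (Fintype.equivFin α).symm)
  let hom : Perm (Fin 5) →* Perm α := e.permCongrHom.toMonoidHom.comp
    (MulAction.toPermHom (Perm (Fin 5)) (Sylow 5 (Perm (Fin 5))))
  have hhom : Function.Injective hom := e.permCongrHom.injective.comp hinj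
  refine ⟨hom.range, ?_, fun x hx => ?_⟩
  · have := hom.range.card_mul_index
    rw [show Nat.card hom.range = 120 from
      (Nat.card_congr (MonoidHom.ofInjective hhom).toEquiv.symm).trans h120, Nat.card_perm,
      Nat.card_eq_fintype_card, h6, show Nat.factorial 6 = 720 from rfl] at this
    omega
  · have : Nontrivial α := Fintype.one_lt_card_iff_nontrivial.1 (by omega)
    obtain ⟨y, hy⟩ := exists_ne x
    obtain ⟨g, hg⟩ := MulAction.exists_smul_eq (Perm (Fin 5)) (e.symm x) (e.symm y)
    have hgx : hom g ∈ stabilizer (Perm α) x := hx ▸ ⟨g, rfl⟩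
    have hgx' : e (g • e.symm x) = x := hgx
    rw [hg, e.apply_symm_apply] at hgx'
    exact hy hgx'

theorem nonempty_mulEquiv_perm_five (h6 : Fintype.card α = 6) {H : Subgroup (Perm α)}
    (hH : H.index = 6) : Nonempty (H ≃* Perm (Fin 5)) := by
  obtain ⟨ψ, y, rfl⟩ := exists_mulEquiv_map_stabilizer (by omega) (hH.trans h6.symm)
  let p : α → Prop := fun z => z ≠ y
  have hr : (ofSubtype : Perm (Subtype p) →* Perm α).range = stabilizer (Perm α) y := by
    ext g
    constructor
    · rintro ⟨f, rfl⟩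
      exact ofSubtype_apply_of_not_mem f (by simp [p])
    · intro hg
      have hgy : g y = y := hg
      refine ⟨g.subtypePerm (p := p) fun z => ?_, ofSubtype_subtypePerm _ fun z hz hzy => hz ?_⟩
      · simp only [p, ne_eq]
        exact not_congr ⟨fun h => g.injective (h.trans hgy.symm), fun h => h ▸ hgy⟩
      · rw [hzy, hgy]
  have e1 : Subtype p ≃ Fin 5 := Fintype.equivFinOfCardEq (by
    rw [show Fintype.card (Subtype p) = Fintype.card {z : α // ¬ z = y} from
      Fintype.card_congr (Equiv.refl _), Fintype.card_subtype_compl, h6, Fintype.card_subtype_eq])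
  exact ⟨(Subgroup.equivMapOfInjective _ _ ψ.injective).symm.trans
    ((MulEquiv.subgroupCongr hr.symm).trans
      ((MonoidHom.ofInjective ofSubtype_injective).symm.trans e1.permCongrHom))⟩

end Cfsg.Agent.SymIndex
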