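import Cfsg.Agent.SymIndex.Basic

/-!
Subgroups of index equal to the degree for degrees three and four fix a point.
-/

namespace Cfsg.Agent.SymIndex

open Equiv Equiv.Perm MulAction

variable {α : Type*} [Fintype α] [DecidableEq α]

theorem exists_unique_fixed {p : ℕ} [Fact p.Prime] (hp : Fintype.card α = p + 1) {g : Perm α}
    (hg : orderOf g = p) : ∃ x, g x = x ∧ ∀ y, g y = y → y = x := by
  have hp2 := (Fact.out : p.Prime).two_le
  obtain ⟨m, hm⟩ := cycleType_prime_order (σ := g) (hg.symm ▸ Fact.out)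
  have hs := sum_cycleType g
  have hle := g.support.card_le_univ
  rw [hm, hg, Multiset.sum_replicate, smul_eq_mul] at hs
  have : m = 0 := by
    by_contra hne
    have h2 : 2 * p ≤ (m + 1) * p := Nat.mul_le_mul_right p (by omega)
    omega
  subst this
  obtain ⟨x, hx⟩ := Finset.card_eq_one.1 (show g.supportᶜ.card = 1 by
    rw [Finset.card_compl]; omega)
  have key : ∀ y, g y = y ↔ y = x := fun y => by
    rw [← notMem_support, ← Finset.mem_compl, hx, Finset.mem_singleton]
  exact ⟨x, (key x).2 rfl, fun y => (key y).1⟩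

theorem exists_fixed_three (h : Fintype.card α = 3) {H : Subgroup (Perm α)}
    (hH : Nat.card H = 2) : ∃ x : α, H ≤ stabilizer (Perm α) x := by
  obtain ⟨g, hg, hgH⟩ : ∃ g : H, g ≠ 1 ∧ ∀ k : H, k = 1 ∨ k = g := by
    rw [Nat.card_eq_two_iff' (1 : H)] at hH
    obtain ⟨g, hg, hu⟩ := hH
    exact ⟨g, hg, fun k => (em (k = 1)).imp_right fun hk => hu k hk⟩
  have ho : orderOf (g : Perm α) = 2 := by
    rw [Subgroup.orderOf_coe]
    exact ((Nat.dvd_prime Nat.prime_two).1 (hH ▸ orderOf_dvd_natCard g)).resolve_left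
      (fun h1 => hg (orderOf_eq_one_iff.1 h1))
  obtain ⟨x, hx, -⟩ := exists_unique_fixed (p := 2) h ho
  refine ⟨x, fun k hk => ?_⟩
  rcases hgH ⟨k, hk⟩ with h1 | h1
  · rw [show k = 1 from congrArg Subtype.val h1]; exact one_mem _
  · rw [show k = (g : Perm α) from congrArg Subtype.val h1]; exact hx

theorem exists_fixed_four (h : Fintype.card α = 4) {H : Subgroup (Perm α)}
    (hH : Nat.card H = 6) : ∃ x : α, H ≤ stabilizer (Perm α) x := by
  have : Fact (Nat.Prime 3) := ⟨by norm_num⟩
  obtain ⟨g, hg⟩ := exists_prime_orderOf_dvd_card' (G := H) 3 (by rw [hH]; norm_num)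
  have hg' : orderOf (g : Perm α) = 3 := (Subgroup.orderOf_coe g).trans hg
  obtain ⟨x, hx, hu⟩ := exists_unique_fixed (p := 3) h hg'
  have hz : (Subgroup.zpowers g).index = 2 := by
    have := (Subgroup.zpowers g).card_mul_index
    rw [Nat.card_zpowers, hg, hH] at this
    omega
  have hn := Subgroup.normal_of_index_eq_two hz
  have hfix : ∀ k : H, k ∈ Subgroup.zpowers g → (k : Perm α) x = x := by
    intro k hk
    have : (k : Perm α) ∈ Subgroup.zpowers (g : Perm α) := by
      obtain ⟨n, rfl⟩ := hk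
      exact ⟨n, by simp⟩
    exact (Subgroup.zpowers_le.2 (show (g : Perm α) ∈ stabilizer (Perm α) x from hx)) this
  refine ⟨x, fun k hk => ?_⟩
  have h1 := hfix _ (hn.conj_mem g (Subgroup.mem_zpowers g) (⟨k, hk⟩ : H)⁻¹)
  simp only [Subgroup.coe_mul, Subgroup.coe_inv, inv_inv, Perm.mul_apply, Perm.inv_eq_iff_eq] at h1
  exact hu (k x) h1

end Cfsg.Agent.SymIndex
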